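import Cfsg.Agent.H857.OE8.Lat
import Cfsg.Agent.H857.OE8.DFour

/-!
# Roots in the span of a quadruple of type `D₄` (helper857, S3384)

* `rep_sp` : `sp b (w c) = (product of the r_{b i}) (sp b c)`; `rt_sp` : `sp b c` is a root iff `c` is;
* `eq_sp_of_orth` : a root orthogonal to `w₈ b` is in the span of `b`;
* `mem_SS_of` : the root `a` is in `SS b` if `rr a` acts on `sp b` as an element of `W(D₄)`.
-/

set_option autoImplicit false
set_option linter.unusedSectionVars false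

namespace Cfsg.Agent.H857.OE8

open CoxeterSystem Cfsg Cfsg.Lie
open Cfsg.Agent.ChevalleyStructure.CoxeterGeom Cfsg.Agent.ChevalleyStructure.CoxeterGeomTypes
open Cfsg.Agent.Tits.Roots Cfsg.Agent.Nodes.RGDChev Cfsg.Agent.H865.EE

/-- the Weyl group of type `D₄` -/
abbrev W4 := coxeterD4.Group

/-- the Coxeter system -/
abbrev cs4 : CoxeterSystem coxeterD4 W4 := coxeterD4.toCoxeterSystem

/-- the action on the root lattice -/
noncomputable abbrev act4 (v : W4) : Module.End ℤ (Fin 4 → ℤ) := rep cs4 d4T.isCartan v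

/-- the roots of type `D₄` -/
abbrev Rt4 (a : Fin 4 → ℤ) : Prop := IsRoot cs4 d4T.isCartan a

/-- the product of the reflections in the `b i` -/
noncomputable def wb (b : Fin 4 → Fin 8 → ℤ) (ω : List (Fin 4)) : W8 := (ω.map fun i => H865.EE.rf (b i)).prod

theorem C4_symm : ∀ i j, C4 i j = C4 j i := by decide

theorem act_sp_simple {b : Fin 4 → Fin 8 → ℤ} (hb : Quad b) (i : Fin 4) (c : Fin 4 → ℤ) :
    act (H865.EE.rf (b i)) (sp b c) = sp b (act4 (cs4.simple i) c) := by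
  rw [act_rf (hb.root i), bf_sp_left]
  have h1 : act4 (cs4.simple i) c = c - (∑ j, C4 i j * c j) • sr i := by
    show rep _ _ _ c = _
    rw [rep_simple_eq]
    unfold pairing
    simp only [hC4]
  rw [h1, sp_sub, sp_smul, sp_sr]
  congr 2
  refine Finset.sum_congr rfl fun j _ => ?_
  rw [gram hb, mul_comm, C4_symm]

theorem act_wb {b : Fin 4 → Fin 8 → ℤ} (hb : Quad b) (ω : List (Fin 4)) (c : Fin 4 → ℤ) :
    act (wb b ω) (sp b c) = sp b (act4 (cs4.wordProd ω) c) := by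
  induction ω with
  | nil =>
    rw [wordProd_nil, wb, List.map_nil, List.prod_nil, act_one]
    show sp b c = sp b (rep _ _ 1 c)
    rw [map_one, Module.End.one_apply]
  | cons i ω ih =>
    have h1 : wb b (i :: ω) = H865.EE.rf (b i) * wb b ω := rfl
    rw [wordProd_cons, h1, act_mul, ih, act_sp_simple hb]
    show _ = sp b (rep _ _ _ c)
    rw [rep_mul_apply]

theorem rt_sp_of {b : Fin 4 → Fin 8 → ℤ} (hb : Quad b) {c : Fin 4 → ℤ} (hc : Rt4 c) : Rt (sp b c) := by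
  obtain ⟨w, i, rfl⟩ := hc
  obtain ⟨ω, rfl⟩ := cs4.wordProd_surjective w
  rw [← act_wb hb, sp_sr]
  exact (hb.root i).act _

/-- the 24 roots, as a test -/
theorem tab4 : ∀ x0 ∈ [(-1 : ℤ), 0, 1], ∀ x1 ∈ [(-2 : ℤ), -1, 0, 1, 2], ∀ x2 ∈ [(-2 : ℤ), -1, 0, 1, 2],
    ∀ x3 ∈ [(-2 : ℤ), -1, 0, 1, 2], x0 ^ 2 + (x1 - x0) ^ 2 + (x2 + x3 - x1) ^ 2 + (x3 - x2) ^ 2 = 2 →
      ∃ r < 24, ∀ i : Fin 4, vec chevD4 4 r i = ![x0, x1, x2, x3] i := by
  unfold vec
  decide +kernel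

theorem nroots4 : chevD4.nroots = 24 := by decide +kernel

theorem rt4_of_norm {c : Fin 4 → ℤ}
    (h : c 0 ^ 2 + (c 1 - c 0) ^ 2 + (c 2 + c 3 - c 1) ^ 2 + (c 3 - c 2) ^ 2 = 2) : Rt4 c := by
  have key : ∀ a b c d : ℤ, a ^ 2 + b ^ 2 + c ^ 2 + d ^ 2 = 2 → (a = -1 ∨ a = 0 ∨ a = 1) := by
    intro a b c d h
    have h1 : a ^ 2 ≤ 2 := by nlinarith [sq_nonneg b, sq_nonneg c, sq_nonneg d]
    have h2 : a ≤ 1 := by nlinarith
    have h3 : -1 ≤ a := by nlinarith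
    omega
  have k0 := key _ _ _ _ h
  have k1 := key (c 1 - c 0) (c 0) (c 2 + c 3 - c 1) (c 3 - c 2) (by linear_combination h)
  have k2 := key (c 2 + c 3 - c 1) (c 0) (c 1 - c 0) (c 3 - c 2) (by linear_combination h)
  have k3 := key (c 3 - c 2) (c 0) (c 1 - c 0) (c 2 + c 3 - c 1) (by linear_combination h)
  obtain ⟨r, hr, h1⟩ := tab4 (c 0) (by simp; omega) (c 1) (by simp; omega) (c 2) (by simp; omega) (c 3)
    (by simp; omega) h
  refine (isRoot_iff d4T cs4 c).2 ⟨r, by rw [nroots4]; exact hr, ?_⟩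
  funext i
  rw [h1 i]
  fin_cases i <;> rfl

theorem rt4_iff {b : Fin 4 → Fin 8 → ℤ} (hb : Quad b) {c : Fin 4 → ℤ} : Rt (sp b c) ↔ Rt4 c :=
  ⟨fun h => rt4_of_norm (by rw [← norm_sp hb, bf_self h]), rt_sp_of hb⟩

/-- the roots in the span of `b` -/
theorem mem_Ph {b : Fin 4 → Fin 8 → ℤ} (hb : Quad b) {a : Fin 8 → ℤ} : a ∈ Ph b ↔ ∃ c, Rt4 c ∧ a = sp b c := by
  constructor
  · rintro ⟨h1, c, rfl⟩
    exact ⟨c, (rt4_iff hb).1 h1, rfl⟩
  · rintro ⟨c, hc, rfl⟩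
    exact ⟨rt_sp_of hb hc, c, rfl⟩

theorem sp_inj {b : Fin 4 → Fin 8 → ℤ} (hb : Quad b) {c c' : Fin 4 → ℤ} (h : sp b c = sp b c') : c = c' := by
  have h0 : sp b (c - c') = 0 := by rw [sp_sub, h, sub_self]
  have h1 := norm_sp hb (c - c')
  rw [h0] at h1
  have h2 : bf (0 : Fin 8 → ℤ) 0 = 0 := by simp [bf]
  rw [h2] at h1
  generalize hd : c - c' = d at h1
  have k0 : d 0 = 0 := by nlinarith [sq_nonneg (d 0), sq_nonneg (d 1 - d 0), sq_nonneg (d 2 + d 3 - d 1), sq_nonneg (d 3 - d 2)]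
  have k1 : d 1 - d 0 = 0 := by nlinarith [sq_nonneg (d 0), sq_nonneg (d 1 - d 0), sq_nonneg (d 2 + d 3 - d 1), sq_nonneg (d 3 - d 2)]
  have k2 : d 2 + d 3 - d 1 = 0 := by nlinarith [sq_nonneg (d 0), sq_nonneg (d 1 - d 0), sq_nonneg (d 2 + d 3 - d 1), sq_nonneg (d 3 - d 2)]
  have k3 : d 3 - d 2 = 0 := by nlinarith [sq_nonneg (d 0), sq_nonneg (d 1 - d 0), sq_nonneg (d 2 + d 3 - d 1), sq_nonneg (d 3 - d 2)]
  have h3 : d = 0 := by
    funext i
    fin_cases i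
    · exact k0
    · show d 1 = 0; omega
    · show d 2 = 0; omega
    · show d 3 = 0; omega
  rw [h3] at hd
  exact sub_eq_zero.1 hd

end Cfsg.Agent.H857.OE8
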