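import Cfsg.Agent.H857.OE8.PsiC
import Cfsg.Agent.H405.EE.Psi2
import Cfsg.Agent.UGT.U2.Rec.Congr

/-!
# Piece X of S3384 : the subgroups `XB k b` (helper857)
-/

set_option autoImplicit false
set_option linter.unusedSectionVars false

namespace Cfsg.Agent.H857.OX

open Cfsg Cfsg.Lie Cfsg.Agent.H865.EE Cfsg.Agent.H857.OE8
open Cfsg.Agent.KFacts.RgdChevCoord hiding act
open Cfsg.Agent.BpExc.TowChev

universe u

/-- `Ω₈⁺(F)` depends on the number of elements of `F` only. -/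
theorem omega_congr {F F' : Type*} [Field F] [Field F'] (σ : F ≃+* F') :
    Nonempty (↥(Omega F (quadFormPlus 4 F)) ≃* ↥(Omega F' (quadFormPlus 4 F'))) := by
  have h : ∀ v : Fin 4 ⊕ Fin 4 → F, quadFormPlus 4 F' (σ ∘ v) = σ (quadFormPlus 4 F v) := fun v => by
    simp [quadFormPlus, map_sum, map_mul]
  exact Cfsg.Agent.UGT.U2.Rec.Congr.commutator_equiv
    (((Cfsg.Agent.UGT.U2.Rec.Congr.glEquiv σ).subgroupMap (isometryGroup F (quadFormPlus 4 F))).trans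
      (MulEquiv.subgroupCongr (Cfsg.Agent.UGT.U2.Rec.Congr.map_isometryGroup σ h)))

variable {k : Type} [Field k] [CharP k 2] [PerfectRing k 2] [IsAlgClosed k]

theorem exists_isPsi (hk : LocFin k) {b : Fin 4 → Fin 8 → ℤ} (hb : Quad b) :
    ∃ psi : ↥(chevD4.group k) →* ↥(chevE8.group k), IsPsi b psi := by
  obtain ⟨psi, -, h⟩ := Cfsg.Agent.H405.EE.exists_psi k hk b hb.root hb.ad
  exact ⟨psi, fun a ha c => (h a ha).2 c⟩

theorem xb_iso (hk : LocFin k) {b : Fin 4 → Fin 8 → ℤ} (hb : Quad b) (F : Type u) [Field F] [Fintype F]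
    (hF : Fintype.card F = 4) : Nonempty (↥(XB k b) ≃* ↥(Cfsg.Omega F (Cfsg.quadFormPlus 4 F))) := by
  obtain ⟨psi, hpsi⟩ := exists_isPsi hk hb
  let _ : Fintype (GaloisField 2 2) := Fintype.ofFinite _
  have h4 : Fintype.card (GaloisField 2 2) = 4 := by
    rw [← Nat.card_eq_fintype_card, GaloisField.card 2 2 (by norm_num)]
    norm_num
  obtain ⟨e⟩ := xb_omega hb hpsi hk (F := GaloisField 2 2) h4
  obtain ⟨e'⟩ := omega_congr (FiniteField.ringEquivOfCardEq (K := GaloisField 2 2) (K' := F) (h4.trans hF.symm))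
  exact ⟨e.trans e'⟩

theorem e5_le (hk : LocFin k) {b : Fin 4 → Fin 8 → ℤ} (hb : Quad b) : E5 k ≤ XB k b := by
  obtain ⟨psi, hpsi⟩ := exists_isPsi hk hb
  exact OE8.e5_le hb hpsi hk

theorem mem_of_nu_mem (hk : LocFin k) {b : Fin 4 → Fin 8 → ℤ} (hb : Quad b) {v : W8} {t : ↥(chevE8.group k)}
    (ht : t ∈ TT chevE8 k) (h : nu tp8 k v * t ∈ XB k b) : v ∈ Subgroup.closure (Set.range fun i => rr (b i)) := by
  obtain ⟨psi, hpsi⟩ := exists_isPsi hk hb
  obtain ⟨ω, rfl⟩ := eq_prod_rr hb hpsi hk ht h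
  refine Subgroup.list_prod_mem _ fun x hx => ?_
  obtain ⟨i, -, rfl⟩ := List.mem_map.1 hx
  exact Subgroup.subset_closure ⟨i, rfl⟩

theorem nu_mem (hk : LocFin k) {b : Fin 4 → Fin 8 → ℤ} (hb : Quad b) {v : W8}
    (h : v ∈ Subgroup.closure (Set.range fun i => rr (b i))) : nu tp8 k v ∈ XB k b := by
  have h1 : Subgroup.closure (Set.range fun i => rr (b i)) ≤ (XB k b).comap (nu tp8 k) := by
    rw [Subgroup.closure_le]
    rintro _ ⟨i, rfl⟩
    refine nu_rr_mem hk ⟨hb.root i, Cfsg.Agent.Tits.Roots.sr i, ?_⟩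
    exact (sp_sr b i).symm
  exact h1 h

theorem ss_of_xb (hk : LocFin k) {b b' : Fin 4 → Fin 8 → ℤ} (hb : Quad b) (hb' : Quad b') (h : XB k b = XB k b') :
    SS b = SS b' := by
  obtain ⟨psi, hpsi⟩ := exists_isPsi hk hb
  obtain ⟨psi', hpsi'⟩ := exists_isPsi hk hb'
  exact Set.Subset.antisymm (ss_le hb' hpsi' hk h.le) (ss_le hb hpsi hk h.ge)

end Cfsg.Agent.H857.OX
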