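import Cfsg.Agent.H857.OE8.GrpA
import Cfsg.Agent.H857.OE8.LatC
import Cfsg.Agent.S1054

/-!
# `D₄(k)` in `E₈(k)` and its image under `ta` (helper857, S3384)

`psi : D₄(k) → E₈(k)` with `x_a(c) ↦ x_{sp b a}(c)` (`IsPsi b psi`).

* `psi_comm` : `psi x` commutes with `ta (psi y)`; `ta_ta_psi` : `ta (ta (psi x)) = psi (cc x)`;
* `psi_inj`; `dd psi x = psi x * ta (psi x)` is an injective homomorphism;
* `KK_eq` : the subgroup generated by the root groups of `SS b` is `psi(D₄(k)) · ta (psi(D₄(k)))`;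
* `XB_eq` : `XB k b` is the image of `Fx (cc k)` under `dd psi`.
-/

set_option autoImplicit false
set_option linter.unusedSectionVars false

namespace Cfsg.Agent.H857.OE8

open CoxeterSystem Subgroup Cfsg Cfsg.Lie Cfsg.Lie.ChevalleyDatum
open Cfsg.Agent.ChevalleyStructure Cfsg.Agent.ChevalleyStructure.Elts Cfsg.Agent.ChevalleyStructure.CoxeterGeom
  Cfsg.Agent.ChevalleyStructure.CoxeterGeomTypes Cfsg.Agent.ChevalleyStructure.NPerm
open Cfsg.Agent.Tits.Roots Cfsg.Agent.Tits.Core Cfsg.Agent.Nodes Cfsg.Agent.Nodes.Reps Cfsg.Agent.Nodes.BNOf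
  Cfsg.Agent.Nodes.RGDChev Cfsg.Agent.Nodes.Bruhat
open Cfsg.Agent.KFacts.RgdChevCoord hiding act
open Cfsg.Agent.KFacts.RgdField Cfsg.Agent.BpExc.TorCent Cfsg.Agent.BpExc.TorChev
open Cfsg.Agent.BpExc.Tow Cfsg.Agent.BpExc.TowChev Cfsg.Agent.BpExc.Fr
  Cfsg.Agent.BpExc.LangFr Cfsg.Agent.BpExc.FamField Cfsg.Agent.BpExc.FamInst Cfsg.Agent.H129.TorusChar
  Cfsg.Agent.H795.LangT Cfsg.Agent.BpExc.FamExt Cfsg.Agent.BpExc.FamUntw Cfsg.Agent.H378.TorDual
  Cfsg.Agent.H378.TorChar Cfsg.Agent.H378.TorFin Cfsg.Agent.H378.RootTor Cfsg.Agent.H865.EE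

section

variable {k : Type} [Field k] [CharP k 2]

theorem mem_SS {b : Fin 4 → Fin 8 → ℤ} {a : Fin 8 → ℤ} : a ∈ SS b ↔ a ∈ Ph b ∨ ∃ a' ∈ Ph b, a = act w8 a' := Iff.rfl

theorem rt_act {a : Fin 8 → ℤ} (ha : Rt a) (v : W8) : Rt (act v a) := ha.act v

theorem nu_rf (hk : LocFin k) {a : Fin 8 → ℤ} (ha : Rt a) : nu tp8 k (H865.EE.rf a) = na tp8 k a := by
  obtain ⟨w, i, h⟩ := id ha
  have h1 : H865.EE.rf (sr i : Fin 8 → ℤ) = cs8.simple i := by
    refine act_ext fun x => ?_
    rw [act_rf (isRoot_sr _ _ i), bf_sr]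
    show _ = rep _ _ _ x
    rw [rep_simple_eq]
  have h2 : H865.EE.rf a = w * cs8.simple i * w⁻¹ := by
    rw [← h1, conj_rf w (isRoot_sr _ _ i)]
    exact congrArg _ h
  rw [h2, map_mul, map_mul, map_inv, nu_simple, nc_eq, nu_na tp8 hk w (isRoot_sr _ _ i)]
  exact congrArg _ h.symm

/-- **Root elements of orthogonal roots commute.** -/
theorem comm_orth {a b : Fin 8 → ℤ} (ha : Rt a) (hb : Rt b) (h : bf a b = 0) (c d : k) (hk : LocFin k) :
    xc tp8 a c * xc tp8 b d = xc tp8 b d * xc tp8 a c := by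
  have hab : a ≠ b := by
    rintro rfl
    rw [bf_self ha] at h
    norm_num at h
  have hab' : a ≠ -b := by
    rintro rfl
    rw [bf_neg_left, bf_self hb] at h
    norm_num at h
  have h1 := Cfsg.Agent.BpExc.CommZ.comm_mem_Z tp8 cs8 ha hb hab hab' (xc_mem' tp8 hk ha c) (xc_mem' tp8 hk hb d)
  have h2 : RGD.Sup (XX chevE8 8 k) (Cfsg.Agent.BpExc.CommZ.combZ cs8 tp8 a b) ≤ ⊥ := by
    refine RGD.Sup_le fun z hz => ?_
    exfalso
    obtain ⟨hz1, i, j, hi, hj, rfl⟩ := hz
    have h3 := bf_self hz1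
    have e1 : (i • a + j • b : Fin 8 → ℤ) = (i : ℤ) • a + (j : ℤ) • b := by
      rw [natCast_zsmul, natCast_zsmul]
    rw [e1, bf_add_left, bf_add_right, bf_add_right, bf_smul_left, bf_smul_right, bf_smul_left, bf_smul_right,
      bf_smul_left, bf_smul_right, bf_smul_left, bf_smul_right, bf_self ha, bf_self hb, h, bf_comm b a, h] at h3
    have hi' : (1 : ℤ) ≤ i := by exact_mod_cast hi
    have hj' : (1 : ℤ) ≤ j := by exact_mod_cast hj
    nlinarith
  have h3 := h2 h1
  rw [Subgroup.mem_bot, commutatorElement_eq_one_iff_mul_comm] at h3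
  exact h3

theorem na_comm {a b : Fin 8 → ℤ} (ha : Rt a) (hb : Rt b) (h : bf a b = 0) (d : k) (hk : LocFin k) :
    na tp8 k a * xc tp8 b d = xc tp8 b d * na tp8 k a := by
  have h1 : Commute (xc tp8 a (1 : k)) (xc tp8 b d) := comm_orth ha hb h 1 d hk
  have h2 : Commute (xc tp8 (-a) (1 : k)) (xc tp8 b d) := comm_orth ha.neg hb (by rw [bf_neg_left, h, neg_zero]) 1 d hk
  exact h1.mul_left (h2.mul_left h1)

variable [IsAlgClosed k] [PerfectRing k 2]

theorem ta_xc (hk : LocFin k) {a : Fin 8 → ℤ} (ha : Rt a) (c : k) :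
    ta k (xc tp8 a c) = xc tp8 (act w8 a) (c ^ 2) := by
  have h1 : phi chevE8 k 2 1 (xc tp8 a c) = xc tp8 a (c ^ 2) := by
    obtain ⟨j, hj, rfl⟩ := (isRoot_iff tp8 _ a).1 ha
    exact phi_xc tp8 2 hj c
  rw [ta, tau_apply, h1, nu_conj tp8 hk w8 ha]

theorem ta_nu (v : W8) : ta k (nu tp8 k v) = nu tp8 k (w8 * v * w8⁻¹) := by
  rw [ta, tau_apply, phi_nu, map_mul, map_mul, map_inv]

theorem ta_inj : Function.Injective (ta k) := by
  intro x y h
  rw [ta, tau_apply, tau_apply] at h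
  exact (phi chevE8 k 2 1).injective (mul_left_cancel (mul_right_cancel h))

theorem mem_GG {y : ↥(chevE8.group k)} : y ∈ GG k ↔ ta k y = y := Iff.rfl

/-- `psi` is the homomorphism `x_a(c) ↦ x_{sp b a}(c)` -/
def IsPsi (b : Fin 4 → Fin 8 → ℤ) (psi : ↥(chevD4.group k) →* ↥(chevE8.group k)) : Prop :=
  ∀ a, Rt4 a → ∀ c, psi (xc d4T a c) = xc tp8 (sp b a) c

section Psi

variable {b : Fin 4 → Fin 8 → ℤ} (hb : Quad b) {psi : ↥(chevD4.group k) →* ↥(chevE8.group k)} (hpsi : IsPsi b psi)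
  (hk : LocFin k)

include hb hpsi hk

theorem psi_comm (x y : ↥(chevD4.group k)) : psi x * ta k (psi y) = ta k (psi y) * psi x := by
  have h1 : ∀ a, Rt4 a → ∀ c : k, ∀ y, psi (xc d4T a c) * ta k (psi y) = ta k (psi y) * psi (xc d4T a c) := by
    intro a ha c
    have h2 : (Subgroup.centralizer {psi (xc d4T a c)}).comap ((ta k).comp psi) = ⊤ := by
      refine gen_top d4T fun a' ha' c' => ?_
      rw [Subgroup.mem_comap, Subgroup.mem_centralizer_singleton_iff, MonoidHom.comp_apply, hpsi a ha, hpsi a' ha',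
        ta_xc hk (rt_sp_of hb ha')]
      have h3 := comm_orth (rt_sp_of hb ha) (rt_act (rt_sp_of hb ha') w8) (orth_sp hb a a') c (c' ^ 2) hk
      exact h3.symm
    intro y
    have h3 : y ∈ (Subgroup.centralizer {psi (xc d4T a c)}).comap ((ta k).comp psi) := by
      rw [h2]; exact Subgroup.mem_top y
    rw [Subgroup.mem_comap, Subgroup.mem_centralizer_singleton_iff, MonoidHom.comp_apply] at h3
    exact h3.symm
  have h2 : (Subgroup.centralizer {ta k (psi y)}).comap psi = ⊤ := by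
    refine gen_top d4T fun a ha c => ?_
    rw [Subgroup.mem_comap, Subgroup.mem_centralizer_singleton_iff]
    exact h1 a ha c y
  have h3 : x ∈ (Subgroup.centralizer {ta k (psi y)}).comap psi := by
    rw [h2]; exact Subgroup.mem_top x
  rw [Subgroup.mem_comap, Subgroup.mem_centralizer_singleton_iff] at h3
  exact h3

theorem ta_ta_psi (x : ↥(chevD4.group k)) : ta k (ta k (psi x)) = psi (cc k x) := by
  have h1 : ((ta k).comp (ta k)).comp psi = psi.comp (cc k) := by
    refine hom_ext d4T fun a ha c => ?_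
    show ta k (ta k (psi (xc d4T a c))) = psi (cc k (xc d4T a c))
    rw [hpsi a ha, ta_xc hk (rt_sp_of hb ha), ta_xc hk ((rt_sp_of hb ha).act w8), w8_sq, cc_xc hk ha,
      hpsi (-a) ha.neg, sp_neg, ← pow_mul]
  exact DFunLike.congr_fun h1 x

theorem psi_inj : Function.Injective psi := by
  have hS := (Cfsg.Agent.S1054.result (F := k) chevD4 (by simp)).1
  rw [← MonoidHom.ker_eq_bot_iff]
  rcases (inferInstance : psi.ker.Normal).eq_bot_or_eq_top with h | h
  · exact h
  · exfalso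
    have h0 : Rt4 (sr 0) := isRoot_sr _ _ 0
    have h1 : xc d4T (sr 0) (1 : k) ∈ psi.ker := by rw [h]; exact Subgroup.mem_top _
    rw [MonoidHom.mem_ker, hpsi _ h0, sp_sr] at h1
    exact ((coordsL tp8 cs8 hk 2).coord _ (hb.root 0)).ne_one one_ne_zero h1

omit hb hpsi hk [CharP k 2] [IsAlgClosed k] [PerfectRing k 2] in
theorem center4 : Subgroup.center ↥(chevD4.group k) = ⊥ := by
  obtain ⟨hS, hc⟩ := Cfsg.Agent.S1054.result (F := k) chevD4 (by simp)
  rcases (inferInstance : (Subgroup.center ↥(chevD4.group k)).Normal).eq_bot_or_eq_top with h | h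
  · exact h
  · exfalso
    apply hc
    constructor
    constructor
    intro x y
    have h1 : y ∈ Subgroup.center ↥(chevD4.group k) := by rw [h]; exact Subgroup.mem_top y
    exact (Subgroup.mem_center_iff.1 h1 x)

omit hb hpsi hk [CharP k 2] [IsAlgClosed k] [PerfectRing k 2] in
theorem eq_one_of_central {x : ↥(chevD4.group k)} (h : ∀ y, x * y = y * x) : x = 1 := by
  have h1 : x ∈ Subgroup.center ↥(chevD4.group k) := Subgroup.mem_center_iff.2 fun y => (h y).symm
  rw [center4] at h1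
  exact Subgroup.mem_bot.1 h1

/-- **The fixed points**: `psi x * ta (psi x')` is fixed by `ta` only for `x = x'` fixed by `cc`. -/
theorem fixed_form {x x' : ↥(chevD4.group k)} (h : ta k (psi x * ta k (psi x')) = psi x * ta k (psi x')) :
    x' = x ∧ cc k x = x := by
  rw [map_mul, ta_ta_psi hb hpsi hk] at h
  have hc := psi_comm hb hpsi hk
  -- `psi ((cc x')⁻¹ x) = ta (psi (x x'⁻¹))`
  have h1 : psi ((cc k x')⁻¹ * x) = ta k (psi (x * x'⁻¹)) := by
    have h2 : psi (cc k x') * ta k (psi x) = psi x * ta k (psi x') := by rw [hc]; exact h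
    have h3 : ta k (psi x) = (psi (cc k x'))⁻¹ * psi x * ta k (psi x') := by
      rw [mul_assoc, ← h2]; group
    rw [map_mul, map_inv, map_mul, map_inv, map_mul, map_inv, h3]
    group
  have h2 : (cc k x')⁻¹ * x = 1 := by
    refine eq_one_of_central fun y => psi_inj hb hpsi hk ?_
    have e1 : psi ((cc k x')⁻¹ * x * y) = psi ((cc k x')⁻¹ * x) * psi y := map_mul _ _ _
    have e2 : psi (y * ((cc k x')⁻¹ * x)) = psi y * psi ((cc k x')⁻¹ * x) := map_mul _ _ _
    rw [e1, e2, h1]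
    exact (hc y _).symm
  have h3 : x * x'⁻¹ = 1 := by
    rw [h2, map_one] at h1
    have h4 : psi (x * x'⁻¹) = 1 := ta_inj (by rw [← h1, map_one])
    exact psi_inj hb hpsi hk (by rw [h4, map_one])
  have h4 : x = x' := by
    have := mul_inv_eq_one.1 h3
    exact this
  subst h4
  exact ⟨rfl, inv_mul_eq_one.1 h2⟩

/-- the diagonal homomorphism -/
noncomputable def dd : ↥(chevD4.group k) →* ↥(chevE8.group k) :=
  MonoidHom.mk' (fun x => psi x * ta k (psi x)) fun x y => by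
    have h := psi_comm hb hpsi hk y x
    rw [map_mul, map_mul]
    calc psi x * psi y * (ta k (psi x) * ta k (psi y)) = psi x * (psi y * ta k (psi x)) * ta k (psi y) := by group
      _ = psi x * (ta k (psi x) * psi y) * ta k (psi y) := by rw [h]
      _ = _ := by group

omit hb hpsi hk in
theorem dd_apply (hb : Quad b) (hpsi : IsPsi b psi) (hk : LocFin k) (x : ↥(chevD4.group k)) :
    dd hb hpsi hk x = psi x * ta k (psi x) := rfl

theorem dd_inj : Function.Injective (dd hb hpsi hk) := by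
  rw [← MonoidHom.ker_eq_bot_iff, Subgroup.eq_bot_iff_forall]
  intro x hx
  rw [MonoidHom.mem_ker, dd_apply] at hx
  refine eq_one_of_central fun y => psi_inj hb hpsi hk ?_
  have h1 : psi x = (ta k (psi x))⁻¹ := eq_inv_of_mul_eq_one_left hx
  have h2 := psi_comm hb hpsi hk y x
  rw [map_mul, map_mul, h1]
  have h3 : (ta k (psi x))⁻¹ * psi y = psi y * (ta k (psi x))⁻¹ := by
    rw [inv_mul_eq_iff_eq_mul, ← mul_assoc, ← h2]
    group
  exact h3

/-- the subgroup generated by the root groups of `SS b` -/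
theorem mem_KK {y : ↥(chevE8.group k)} : y ∈ KK k (SS b) ↔ ∃ x x', y = psi x * ta k (psi x') := by
  have hc := psi_comm hb hpsi hk
  constructor
  · intro hy
    let P : Subgroup ↥(chevE8.group k) :=
      { carrier := {y | ∃ x x', y = psi x * ta k (psi x')}
        mul_mem' := by
          rintro _ _ ⟨x, x', rfl⟩ ⟨z, z', rfl⟩
          refine ⟨x * z, x' * z', ?_⟩
          rw [map_mul, map_mul, map_mul]
          calc psi x * ta k (psi x') * (psi z * ta k (psi z')) = psi x * (ta k (psi x') * psi z) * ta k (psi z') := by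
                group
            _ = psi x * (psi z * ta k (psi x')) * ta k (psi z') := by rw [hc z x']
            _ = _ := by group
        one_mem' := ⟨1, 1, by rw [map_one, map_one, mul_one]⟩
        inv_mem' := by
          rintro _ ⟨x, x', rfl⟩
          refine ⟨x⁻¹, x'⁻¹, ?_⟩
          rw [mul_inv_rev, map_inv, map_inv, map_inv]
          have h1 := hc x⁻¹ x'⁻¹
          rw [map_inv, map_inv, map_inv] at h1
          exact h1.symm }
    have h1 : KK k (SS b) ≤ P := by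
      refine (Subgroup.closure_le _).2 ?_
      rintro g ⟨a, ha, c, rfl⟩
      rcases mem_SS.1 ha with ha1 | ⟨a', ha1, ha2⟩
      · obtain ⟨d, hd, h5⟩ := (mem_Ph hb).1 ha1
        refine ⟨xc d4T d c, 1, ?_⟩
        rw [hpsi d hd, map_one, map_one, mul_one, h5]
      · obtain ⟨d, hd, h5⟩ := (mem_Ph hb).1 ha1
        obtain ⟨e, he⟩ := IsAlgClosed.exists_pow_nat_eq c (n := 2) two_pos
        have e3 := ta_xc hk (rt_sp_of hb hd) e
        rw [he] at e3
        refine ⟨1, xc d4T d e, ?_⟩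
        rw [map_one, one_mul, hpsi d hd, ha2, h5]
        exact e3.symm
    exact h1 hy
  · rintro ⟨x, x', rfl⟩
    have h1 : (KK k (SS b)).comap psi = ⊤ := by
      refine gen_top d4T fun a ha c => ?_
      rw [Subgroup.mem_comap, hpsi a ha]
      exact Subgroup.subset_closure ⟨_, Or.inl ((mem_Ph hb).2 ⟨a, ha, rfl⟩), c, rfl⟩
    have h2 : (KK k (SS b)).comap ((ta k).comp psi) = ⊤ := by
      refine gen_top d4T fun a ha c => ?_
      rw [Subgroup.mem_comap, MonoidHom.comp_apply, hpsi a ha, ta_xc hk (rt_sp_of hb ha)]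
      exact Subgroup.subset_closure ⟨_, Or.inr ⟨_, (mem_Ph hb).2 ⟨a, ha, rfl⟩, rfl⟩, _, rfl⟩
    refine mul_mem ?_ ?_
    · have h3 : x ∈ (KK k (SS b)).comap psi := by rw [h1]; exact Subgroup.mem_top x
      exact h3
    · have h3 : x' ∈ (KK k (SS b)).comap ((ta k).comp psi) := by rw [h2]; exact Subgroup.mem_top x'
      exact h3

/-- **`XB k b` is the image of the fixed points of `cc`.** -/
theorem mem_XB {y : ↥(chevE8.group k)} : y ∈ XB k b ↔ ∃ x, cc k x = x ∧ y = psi x * ta k (psi x) := by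
  constructor
  · rintro ⟨h1, h2⟩
    obtain ⟨x, x', rfl⟩ := (mem_KK hb hpsi hk).1 h1
    obtain ⟨h3, h4⟩ := fixed_form hb hpsi hk (mem_GG.1 h2)
    subst h3
    exact ⟨x', h4, rfl⟩
  · rintro ⟨x, hx, rfl⟩
    refine ⟨(mem_KK hb hpsi hk).2 ⟨x, x, rfl⟩, mem_GG.2 ?_⟩
    rw [map_mul, ta_ta_psi hb hpsi hk, hx]
    exact (psi_comm hb hpsi hk x x).symm

/-- **`XB k b` is `Ω₈⁺(4)`.** -/
theorem xb_omega {F : Type} [Field F] [Fintype F] (hF : Fintype.card F = 4) :
    Nonempty (↥(XB k b) ≃* ↥(Omega F (quadFormPlus 4 F))) := by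
  obtain ⟨e⟩ := fix_cc hk hF
  let θ : ↥(Fx (cc k)) →* ↥(XB k b) :=
    ((dd hb hpsi hk).comp (Fx (cc k)).subtype).codRestrict (XB k b) fun x =>
      (mem_XB hb hpsi hk).2 ⟨x.1, mem_Fx.1 x.2, rfl⟩
  have hθ : Function.Bijective θ := by
    constructor
    · intro x y hxy
      exact Subtype.ext (dd_inj hb hpsi hk (congrArg Subtype.val hxy))
    · rintro ⟨y, hy⟩
      obtain ⟨x, hx, rfl⟩ := (mem_XB hb hpsi hk).1 hy
      exact ⟨⟨x, hx⟩, rfl⟩
  exact ⟨(MulEquiv.ofBijective θ hθ).symm.trans e⟩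

end Psi

end

end Cfsg.Agent.H857.OE8
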