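import Cfsg.Agent.H857.OE8.PsiA

/-!
# The torus and the Weyl group of `XB k b` (helper857, S3384)

`psi : D₄(k) → E₈(k)` as in `PsiA`.

* `e5_le` : `E5 k ≤ XB k b`;
* `norm_form` : if `nu v * t ∈ XB k b`, `t` in the torus, then `v` commutes with `w8` and acts on the span of `b` as an
  element of `W(D₄)`; `eq_prod_rr` : such a `v` is a product of the `rr (b i)`;
* `nu_rr_mem` : `nu (rr a) ∈ XB k b` for `a ∈ Ph b`; `ss_le` : so `XB k b' ≤ XB k b` implies `SS b' ⊆ SS b`.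
-/

set_option autoImplicit false
set_option linter.unusedSectionVars false

namespace Cfsg.Agent.H857.OE8

open CoxeterSystem Subgroup Cfsg Cfsg.Lie Cfsg.Lie.ChevalleyDatum
open Cfsg.Agent.ChevalleyStructure Cfsg.Agent.ChevalleyStructure.Elts Cfsg.Agent.ChevalleyStructure.CoxeterGeom
  Cfsg.Agent.ChevalleyStructure.CoxeterGeomTypes Cfsg.Agent.ChevalleyStructure.NPerm
open Cfsg.Agent.Tits.Roots Cfsg.Agent.Tits.Core Cfsg.Agent.Nodes Cfsg.Agent.Nodes.Reps Cfsg.Agent.Nodes.BNOf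
  Cfsg.Agent.Nodes.RGDChev Cfsg.Agent.Nodes.Bruhat
open Cfsg.Agent.KFacts.RgdChevCoord hiding act
open Cfsg.Agent.KFacts.RgdField Cfsg.Agent.BpExc.TorCent Cfsg.Agent.BpExc.TorChev
open Cfsg.Agent.BpExc.Tow Cfsg.Agent.BpExc.TowChev Cfsg.Agent.BpExc.Fr
  Cfsg.Agent.BpExc.LangFr Cfsg.Agent.BpExc.FamField Cfsg.Agent.BpExc.FamInst Cfsg.Agent.H129.TorusChar
  Cfsg.Agent.H795.LangT Cfsg.Agent.BpExc.FamExt Cfsg.Agent.BpExc.FamUntw Cfsg.Agent.H378.TorDual
  Cfsg.Agent.H378.TorChar Cfsg.Agent.H378.TorFin Cfsg.Agent.H378.RootTor Cfsg.Agent.H865.EE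

variable {k : Type} [Field k] [CharP k 2] [IsAlgClosed k] [PerfectRing k 2]

theorem phi_tor {t : ↥(chevE8.group k)} (ht : t ∈ TT chevE8 k) (n : ℕ) : phi chevE8 k 2 n t ∈ TT chevE8 k :=
  phi_mem tp8 2 ht

theorem ta_tor (hk : LocFin k) {t : ↥(chevE8.group k)} (ht : t ∈ TT chevE8 k) : ta k t ∈ TT chevE8 k := by
  rw [ta, tau_apply]
  exact nu_tor tp8 hk w8 (phi_tor ht 1)

theorem cX_ta (hk : LocFin k) {t : ↥(chevE8.group k)} (ht : t ∈ TT chevE8 k) (x : Fin 8 → ℤ) :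
    cX tp8 (ta k t) (act w8 x) = cX tp8 t x ^ 2 := by
  have h2 := cX_rp (hN := nsysL tp8 cs8 hk 2) tp8 cs8 hk 2 (w := w8) (nu_rp tp8 hk w8) (phi_tor ht 1) x
  have h3 : ta k t = nu tp8 k w8 * phi chevE8 k 2 1 t * (nu tp8 k w8)⁻¹ := by
    rw [ta, tau_apply]
  have h1 : cX tp8 (ta k t) (act w8 x) = cX tp8 (phi chevE8 k 2 1 t) x := by
    rw [h3, h2]
  rw [h1]
  refine (isMC_cX tp8 (phi_tor ht 1)).ext ((isMC_cX tp8 ht).pow 2) (fun i => ?_) x
  show cX tp8 (phi chevE8 k 2 1 t) (sr i) = cX tp8 t (sr i) ^ 2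
  rw [cX_sr, cX_sr, ← vec_simple tp8 i, ch_phi tp8 2 (simple_lt tp8.inList (lt_rank tp8 i)) ht, pow_one]

theorem sq_inj {x y : k} (h : x ^ 2 = y ^ 2) : x = y := by
  have h1 : frobenius k 2 x = frobenius k 2 y := by rw [frobenius_def, frobenius_def, h]
  exact frobenius_inj k 2 h1

/-- the restriction of a character to the span of `b` -/
theorem mc_sp (b : Fin 4 → Fin 8 → ℤ) {t : ↥(chevE8.group k)} (ht : t ∈ TT chevE8 k) :
    IsMC fun c : Fin 4 → ℤ => cX tp8 t (sp b c) where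
  zero := by
    show cX tp8 t (sp b 0) = 1
    rw [sp_zero]
    exact (isMC_cX tp8 ht).zero
  add c c' := by
    show cX tp8 t (sp b (c + c')) = cX tp8 t (sp b c) * cX tp8 t (sp b c')
    rw [sp_add]
    exact (isMC_cX tp8 ht).add _ _

theorem mc_spw (b : Fin 4 → Fin 8 → ℤ) {t : ↥(chevE8.group k)} (ht : t ∈ TT chevE8 k) :
    IsMC fun c : Fin 4 → ℤ => cX tp8 t (act w8 (sp b c)) where
  zero := by
    show cX tp8 t (act w8 (sp b 0)) = 1
    rw [sp_zero, map_zero]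
    exact (isMC_cX tp8 ht).zero
  add c c' := by
    show cX tp8 t (act w8 (sp b (c + c'))) = cX tp8 t (act w8 (sp b c)) * cX tp8 t (act w8 (sp b c'))
    rw [sp_add, map_add]
    exact (isMC_cX tp8 ht).add _ _

theorem mc_one : IsMC fun _ : Fin 4 → ℤ => (1 : k) where
  zero := rfl
  add _ _ := (mul_one 1).symm

variable {b : Fin 4 → Fin 8 → ℤ} (hb : Quad b) {psi : ↥(chevD4.group k) →* ↥(chevE8.group k)} (hpsi : IsPsi b psi)
  (hk : LocFin k)

section

include hpsi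

theorem psi_na {a : Fin 4 → ℤ} (ha : Rt4 a) : psi (na d4T k a) = na tp8 k (sp b a) := by
  rw [na, na, map_mul, map_mul, hpsi a ha, hpsi (-a) ha.neg, sp_neg]

theorem psi_ha {a : Fin 4 → ℤ} (ha : Rt4 a) (c : k) : psi (ha' d4T k a c) = ha' tp8 k (sp b a) c := by
  rw [ha', ha', map_mul, map_mul, map_mul, psi_na hpsi ha, hpsi a ha, hpsi (-a) ha.neg, sp_neg]

end

include hb hpsi hk

theorem psi_tor {t : ↥(chevD4.group k)} (ht : t ∈ TT chevD4 k) : psi t ∈ TT chevE8 k := by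
  have h1 : TT chevD4 k ≤ (TT chevE8 k).comap psi := by
    refine tor_gen d4T fun i c hc => ?_
    rw [Subgroup.mem_comap, psi_ha hpsi (sr_root d4T i), sp_sr]
    exact ha_mem tp8 hk (hb.root i) hc
  exact h1 ht

theorem cX_psi {t : ↥(chevD4.group k)} (ht : t ∈ TT chevD4 k) (c : Fin 4 → ℤ) :
    cX tp8 (psi t) (sp b c) = cX d4T t c := by
  have ht8 := psi_tor hb hpsi hk ht
  refine (mc_sp b ht8).ext (isMC_cX d4T ht) (fun i => ?_) c
  show cX tp8 (psi t) (sp b (sr i)) = cX d4T t (sr i)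
  have h1 := congrArg psi (tor_act d4T hk ht (sr_root d4T i) 1)
  rw [map_mul, map_mul, map_inv, hpsi _ (sr_root d4T i), hpsi _ (sr_root d4T i),
    tor_act tp8 hk ht8 (rt_sp_of hb (sr_root d4T i))] at h1
  have h2 := xc_inj' tp8 hk (rt_sp_of hb (sr_root d4T i)) h1
  rwa [mul_one, mul_one] at h2

theorem cX_psi_w {t : ↥(chevD4.group k)} (ht : t ∈ TT chevD4 k) (c : Fin 4 → ℤ) :
    cX tp8 (psi t) (act w8 (sp b c)) = 1 := by
  have ht8 := psi_tor hb hpsi hk ht
  refine (mc_spw b ht8).ext mc_one (fun i => ?_) c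
  show cX tp8 (psi t) (act w8 (sp b (sr i))) = 1
  have hr := rt_sp_of hb (sr_root d4T i)
  have h1 := psi_comm hb hpsi hk t (xc d4T (sr i) 1)
  rw [hpsi _ (sr_root d4T i), ta_xc hk hr, one_pow] at h1
  have h2 := tor_act tp8 hk ht8 (rt_act hr w8) 1
  have h3 : psi t * xc tp8 (act w8 (sp b (sr i))) 1 * (psi t)⁻¹ = xc tp8 (act w8 (sp b (sr i))) 1 := by
    rw [h1]; group
  have h4 := xc_inj' tp8 hk (rt_act hr w8) (h3.symm.trans h2)
  rw [mul_one] at h4
  exact h4.symm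

/-- **The torus of order 625 is in `XB k b`.** -/
theorem e5_le : E5 k ≤ XB k b := by
  rintro t ⟨ht, htG⟩
  have htG' : ta k t = t := htG
  obtain ⟨t1, ht1, hc1⟩ := exists_cX d4T H129.TorusChar.invC_D4 two_ne_zero (mc_sp b ht)
    (fun i => IsAlgClosed.exists_pow_nat_eq _ two_pos)
  have hp1 := psi_tor hb hpsi hk ht1
  have hp2 := ta_tor hk hp1
  have hT : ∀ x, cX tp8 t (act w8 x) = cX tp8 t x ^ 2 := fun x => by
    have h1 := cX_ta hk ht x
    rwa [htG'] at h1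
  have key : t = psi t1 * ta k (psi t1) := by
    refine cX_inj tp8 ht (mul_mem hp1 hp2) fun i => sq_inj ?_
    have h2 : ∀ s ∈ TT chevE8 k, cX tp8 s (sr i) ^ 2 = cX tp8 s (sp b (mc (sr i) b)) *
        cX tp8 s (act w8 (sp b (mc (sr i) fun j => act w8 (b j)))) := by
      intro s hs
      have h3 := (isMC_cX tp8 hs).zsmul 2 (sr i)
      rw [two_smul_eq hb (sr i), (isMC_cX tp8 hs).add] at h3
      rw [h3]
      exact (zpow_natCast _ 2).symm
    generalize mc (sr i) b = m at h2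
    generalize (mc (sr i) fun j => act w8 (b j)) = m' at h2
    have e1 : cX tp8 (ta k (psi t1)) (sp b m) = 1 := by
      have h3 := cX_ta hk hp1 (act w8 (sp b (-m)))
      rw [w8_sq, sp_neg, neg_neg, ← sp_neg, cX_psi_w hb hpsi hk ht1, one_pow] at h3
      exact h3
    rw [h2 t ht, h2 _ (mul_mem hp1 hp2), cX_mul tp8 hp1 hp2, cX_mul tp8 hp1 hp2, e1, cX_psi_w hb hpsi hk ht1,
      cX_ta hk hp1, cX_psi hb hpsi hk ht1, cX_psi hb hpsi hk ht1, hc1, hc1, hT, mul_one, one_mul]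
  refine ⟨?_, htG⟩
  rw [key]
  exact (mem_KK hb hpsi hk).2 ⟨t1, t1, rfl⟩

theorem tor_of_psi {s : ↥(chevD4.group k)} (hs : psi s ∈ TT chevE8 k) : s ∈ TT chevD4 k := by
  obtain ⟨t1, ht1, hc1⟩ := exists_cX d4T H129.TorusChar.invC_D4 two_ne_zero (mc_sp b hs)
    (fun i => IsAlgClosed.exists_pow_nat_eq _ two_pos)
  have h1 : ∀ a, Rt4 a → ∀ c : k, s * xc d4T a c * s⁻¹ = t1 * xc d4T a c * t1⁻¹ := by
    intro a ha c
    refine psi_inj hb hpsi hk ?_
    rw [tor_act d4T hk ht1 ha, map_mul, map_mul, map_inv, hpsi a ha, hpsi a ha, tor_act tp8 hk hs (rt_sp_of hb ha), hc1]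
  have h2 : (Subgroup.centralizer {t1⁻¹ * s}) = ⊤ := by
    refine gen_top d4T fun a ha c => ?_
    rw [Subgroup.mem_centralizer_singleton_iff]
    have h3 := h1 a ha c
    have h4 : s * xc d4T a c = t1 * xc d4T a c * t1⁻¹ * s := by rw [← h3]; group
    have h5 : t1⁻¹ * s * xc d4T a c = xc d4T a c * (t1⁻¹ * s) := by
      rw [mul_assoc, h4]; group
    first | exact h5 | exact h5.symm
  have h3 : t1⁻¹ * s = 1 := by
    refine eq_one_of_central fun y => ?_
    have h4 : y ∈ Subgroup.centralizer {t1⁻¹ * s} := by rw [h2]; exact Subgroup.mem_top y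
    rw [Subgroup.mem_centralizer_singleton_iff] at h4
    first | exact h4 | exact h4.symm
  rw [inv_mul_eq_one] at h3
  rw [← h3]
  exact ht1

/-- **The elements of the Weyl group of `E₈` with a representative in `XB k b`.** -/
theorem norm_form {v : W8} {t : ↥(chevE8.group k)} (ht : t ∈ TT chevE8 k) (h : nu tp8 k v * t ∈ XB k b) :
    v ∈ CW ∧ ∃ ω : List (Fin 4), ∀ c, act v (sp b c) = sp b (act4 (cs4.wordProd ω) c) := by
  obtain ⟨x, hx, hy⟩ := (mem_XB hb hpsi hk).1 h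
  have hyG : ta k (nu tp8 k v * t) = nu tp8 k v * t := h.2
  constructor
  · -- `v` commutes with `w8`
    rw [map_mul, ta_nu] at hyG
    have h1 : nu tp8 k (v⁻¹ * (w8 * v * w8⁻¹)) ∈ TT chevE8 k := by
      have h2 : nu tp8 k (v⁻¹ * (w8 * v * w8⁻¹)) = t * (ta k t)⁻¹ := by
        rw [map_mul, map_inv]
        have h3 : nu tp8 k (w8 * v * w8⁻¹) = nu tp8 k v * t * (ta k t)⁻¹ := by rw [← hyG]; group
        rw [h3]
        group
      rw [h2]
      exact mul_mem ht (inv_mem (ta_tor hk ht))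
    have h2 := nu_inj_TT tp8 hk H129.TorusChar.invC_E8 one_ne_zero h1
    have h3 : w8 * v * w8⁻¹ = v := (inv_mul_eq_one.1 h2).symm
    have h4 : w8 * v = v * w8 := mul_inv_eq_iff_eq_mul.1 h3
    rw [mem_CW]
    intro z
    rw [← act_mul, ← act_mul, h4]
  · -- conjugation by `y`
    have hconj : ∀ z, (nu tp8 k v * t) * psi z * (nu tp8 k v * t)⁻¹ = psi (x * z * x⁻¹) := by
      intro z
      have h1 := psi_comm hb hpsi hk z x
      rw [hy, map_mul, map_mul, map_inv]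
      calc psi x * ta k (psi x) * psi z * (psi x * ta k (psi x))⁻¹ =
          psi x * (ta k (psi x) * psi z) * (ta k (psi x))⁻¹ * (psi x)⁻¹ := by group
        _ = psi x * (psi z * ta k (psi x)) * (ta k (psi x))⁻¹ * (psi x)⁻¹ := by rw [h1]
        _ = _ := by group
    have hnorm : ∀ s ∈ TT chevD4 k, x * s * x⁻¹ ∈ TT chevD4 k := by
      intro s hs
      refine tor_of_psi hb hpsi hk ?_
      rw [← hconj]
      have h1 : nu tp8 k v * t * psi s * (nu tp8 k v * t)⁻¹ = nu tp8 k v * (t * psi s * t⁻¹) * (nu tp8 k v)⁻¹ := by group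
      rw [h1]
      exact nu_tor tp8 hk v (mul_mem (mul_mem ht (psi_tor hb hpsi hk hs)) (inv_mem ht))
    obtain ⟨u, hu⟩ := exists_rep d4T hk hnorm
    have hroot : ∀ a, Rt4 a → act v (sp b a) = sp b (act4 u a) := by
      intro a ha
      obtain ⟨c, hc, e⟩ := hu a ha
      have hr := rt_sp_of hb ha
      have h1 := hconj (xc d4T a 1)
      rw [e, hpsi a ha, hpsi _ (ha.act u)] at h1
      have h2 : nu tp8 k v * t * xc tp8 (sp b a) 1 * (nu tp8 k v * t)⁻¹ =
          nu tp8 k v * (t * xc tp8 (sp b a) 1 * t⁻¹) * (nu tp8 k v)⁻¹ := by group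
      rw [h2, tor_act tp8 hk ht hr, nu_conj tp8 hk v hr] at h1
      refine xc_root_eq tp8 hk (rt_act hr v) (rt_sp_of hb (ha.act u)) h1 ?_
      rw [mul_one]
      exact (isMC_cX tp8 ht).ne_zero _
    obtain ⟨ω, hω⟩ := cs4.wordProd_surjective u
    refine ⟨ω, fun c => ?_⟩
    rw [hω]
    have h1 : ∀ c : Fin 4 → ℤ, act v (sp b c) = ∑ i, c i • act v (sp b (sr i)) := by
      intro c
      rw [sp, map_sum]
      exact Finset.sum_congr rfl fun i _ => by rw [map_smul, sp_sr]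
    have h2 : ∀ c : Fin 4 → ℤ, sp b (act4 u c) = ∑ i, c i • sp b (act4 u (sr i)) := by
      intro c
      let f : (Fin 4 → ℤ) →+ (Fin 8 → ℤ) :=
        { toFun := sp b, map_zero' := sp_zero b, map_add' := sp_add b }
      conv_lhs => rw [IsMC.eq_sum_sr c]
      rw [map_sum]
      show f (∑ i, act4 u (c i • sr i)) = _
      rw [map_sum]
      refine Finset.sum_congr rfl fun i _ => ?_
      show sp b (act4 u (c i • sr i)) = _
      rw [map_smul, sp_smul]
    rw [h1, h2]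
    exact Finset.sum_congr rfl fun i _ => by rw [hroot _ (sr_root d4T i)]

end Cfsg.Agent.H857.OE8
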